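import Cfsg.Agent.H943.E7V.Iface
import Cfsg.Agent.H484.Pos

/-!
# Fixed spaces of subgroups of odd order in the 56-dimensional module, in integers (S5935)

* `fix_nat` : `∑_{k ∈ K} bc(f k) = d |K|`, `d ≤ n`, for `K` of odd order.
* `Tr t`    : an integer valued function `t` on `S` with the values of the Brauer character at the elements of order
  1, 3, 5, 7, 13 and the divisibility property for the subgroups whose elements have these orders.
* `exists_tr` : `Adm S → ∃ t, Tr t`.
-/

set_option autoImplicit false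

namespace Cfsg.Agent.H540.E72

open Cfsg IsLocalRing Module Cfsg.Agent.H657 Cfsg.Agent.H943.E7V

variable {M : Ideal AlgInt} {V : ValuationSubring ℂ} {S : Type*} [Group S]

/-- the dimension of the fixed space of a group of odd order -/
theorem fix_nat (hM : IsPModular 2 M) (hV : Above M V) {n : ℕ}
    (σ : Representation (ResidueField V) S (Fin n → ResidueField V)) {K : Type*} [Group K] [Fintype K]
    (hK : ¬ 2 ∣ Nat.card K) (f : K →* S) :
    ∃ d : ℕ, d ≤ n ∧ ∑ k : K, bc 2 σ (f k) = (d : ℂ) * Nat.card K := by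
  obtain ⟨d, h1, h2⟩ := H484.Pos.pos hM hV (σ.comp f) Characters.Core.isIrr_one (fun g hg => by
    exfalso
    apply hg
    intro h
    exact hK (h.trans (orderOf_dvd_natCard g)))
  refine ⟨d, h1, ?_⟩
  rw [Nat.card_eq_fintype_card, h2]
  simp only [Pi.one_apply, mul_one, one_mul]
  rfl

/-- the orders at which the values are recorded -/
def Ok (n : ℕ) : Prop := n = 1 ∨ n = 3 ∨ n = 5 ∨ n = 7 ∨ n = 13

/-- the values of the 56-dimensional module of `E₇(2)`, in integers -/
structure Tr (t : S → ℤ) : Prop where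
  one : t 1 = 56
  conj : ∀ g h : S, t (g * h * g⁻¹) = t h
  three : ∀ g, orderOf g = 3 → t g = 2 ∨ t g = 20 ∨ t g = -7 ∨ t g = -25
  five : ∀ g, orderOf g = 5 → t g = 6
  seven : ∀ g, orderOf g = 7 → t g = 14 ∨ t g = 0 ∨ t g = -7
  thirteen : ∀ g, orderOf g = 13 → t g = 4
  inv : ∀ g, orderOf g = 3 → t g⁻¹ = t g
  seven_pow : ∀ g, orderOf g = 7 → ∀ j : ℕ, Nat.Coprime j 7 → t (g ^ j) = t g
  /-- the fixed space of a subgroup of odd order with elements of orders 1, 3, 5, 7, 13 -/
  fix : ∀ (K : Type) [Group K] [Fintype K] (f : K →* S), Function.Injective f → ¬ 2 ∣ Nat.card K →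
    (∀ k : K, Ok (orderOf k)) → ∃ d : ℕ, d ≤ 56 ∧ ∑ k : K, t (f k) = (d : ℤ) * Nat.card K
  /-- the same for subgroups -/
  fix' : ∀ (K : Subgroup S) [Fintype K], ¬ 2 ∣ Nat.card K →
    (∀ k ∈ K, Ok (orderOf k)) → ∃ d : ℕ, d ≤ 56 ∧ ∑ k : K, t (k : S) = (d : ℤ) * Nat.card K

theorem fix_int (hM : IsPModular 2 M) (hV : Above M V) {n : ℕ}
    (σ : Representation (ResidueField V) S (Fin n → ResidueField V)) {t : S → ℤ}
    (ht : ∀ g, Ok (orderOf g) → bc 2 σ g = t g) {K : Type*} [Group K] [Fintype K] (f : K →* S)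
    (hf : Function.Injective f) (hK : ¬ 2 ∣ Nat.card K) (hok : ∀ k : K, Ok (orderOf k)) :
    ∃ d : ℕ, d ≤ n ∧ ∑ k : K, t (f k) = (d : ℤ) * Nat.card K := by
  obtain ⟨d, h1, h2⟩ := fix_nat hM hV σ hK f
  refine ⟨d, h1, ?_⟩
  have h3 : ∑ k : K, bc 2 σ (f k) = ((∑ k : K, t (f k) : ℤ) : ℂ) := by
    push_cast
    refine Finset.sum_congr rfl fun k _ => ht _ ?_
    rw [orderOf_injective f hf]
    exact hok k
  rw [h3] at h2
  exact_mod_cast h2

theorem exists_tr (h : Adm S) : ∃ t : S → ℤ, Tr t := by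
  classical
  obtain ⟨M, V, hM, hV, σ, H⟩ := h
  have hex : ∀ g : S, Ok (orderOf g) → ∃ z : ℤ, bc 2 σ g = z := by
    intro g hg
    rcases hg with h | h | h | h | h
    · rw [orderOf_eq_one_iff] at h
      exact ⟨56, by rw [h, H.one]; norm_num⟩
    · rcases H.three g h with h | h | h | h
      · exact ⟨2, by rw [h]; norm_num⟩
      · exact ⟨20, by rw [h]; norm_num⟩
      · exact ⟨-7, by rw [h]; norm_num⟩
      · exact ⟨-25, by rw [h]; norm_num⟩
    · exact ⟨6, by rw [H.five g h]; norm_num⟩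
    · rcases H.seven g h with h | h | h
      · exact ⟨14, by rw [h]; norm_num⟩
      · exact ⟨0, by rw [h]; norm_num⟩
      · exact ⟨-7, by rw [h]; norm_num⟩
    · exact ⟨4, by rw [H.thirteen g h]; norm_num⟩
  let t : S → ℤ := fun g => if hg : ∃ z : ℤ, bc 2 σ g = z then hg.choose else 0
  have ht : ∀ g, Ok (orderOf g) → bc 2 σ g = t g := by
    intro g hg
    have h1 : ∃ z : ℤ, bc 2 σ g = z := hex g hg
    have h2 : t g = h1.choose := dif_pos h1
    rw [h2]
    exact h1.choose_spec
  refine ⟨t, ?_, ?_, ?_, ?_, ?_, ?_, ?_, ?_, ?_, ?_⟩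
  · have h1 := ht 1 (Or.inl orderOf_one)
    rw [H.one] at h1
    exact_mod_cast h1.symm
  · intro g h
    have h1 : bc 2 σ (g * h * g⁻¹) = bc 2 σ h := bc_conj 2 σ h g
    show (if hg : ∃ z : ℤ, bc 2 σ (g * h * g⁻¹) = z then hg.choose else 0) = t h
    simp only [h1]
    rfl
  · intro g hg
    have h1 := ht g (Or.inr (Or.inl hg))
    rcases H.three g hg with h | h | h | h <;> rw [h] at h1
    · left; exact_mod_cast h1.symm
    · right; left; exact_mod_cast h1.symm
    · right; right; left; exact_mod_cast h1.symm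
    · right; right; right; exact_mod_cast h1.symm
  · intro g hg
    have h1 := ht g (Or.inr (Or.inr (Or.inl hg)))
    rw [H.five g hg] at h1
    exact_mod_cast h1.symm
  · intro g hg
    have h1 := ht g (Or.inr (Or.inr (Or.inr (Or.inl hg))))
    rcases H.seven g hg with h | h | h <;> rw [h] at h1
    · left; exact_mod_cast h1.symm
    · right; left; exact_mod_cast h1.symm
    · right; right; exact_mod_cast h1.symm
  · intro g hg
    have h1 := ht g (Or.inr (Or.inr (Or.inr (Or.inr hg))))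
    rw [H.thirteen g hg] at h1
    exact_mod_cast h1.symm
  · intro g hg
    have h1 := ht g (Or.inr (Or.inl hg))
    have h2 := ht g⁻¹ (Or.inr (Or.inl (by rw [orderOf_inv, hg])))
    rw [H.three_inv g hg, h1] at h2
    exact_mod_cast h2.symm
  · intro g hg j hj
    have h1 := ht g (Or.inr (Or.inr (Or.inr (Or.inl hg))))
    have h2 := ht (g ^ j) (Or.inr (Or.inr (Or.inr (Or.inl (by
      rw [Nat.Coprime.orderOf_pow (by rw [hg]; exact hj.symm), hg])))))
    rw [H.seven_pow g hg j hj, h1] at h2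
    exact_mod_cast h2.symm
  · intro K _ _ f hf hK hok
    exact fix_int hM hV σ ht f hf hK hok
  · intro K _ hK hok
    exact fix_int hM hV σ ht K.subtype K.subtype_injective hK (fun k => by
      rw [← Subgroup.orderOf_coe]
      exact hok k k.2)

end Cfsg.Agent.H540.E72
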