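import Cfsg.Agent.H943.E7V.Scott
import Cfsg.Agent.H194.E7V.A13Tr
import Cfsg.Agent.H61.E7.L219
import Cfsg.Agent.H183.OutPSL
import Cfsg.Agent.S0813
import Cfsg.Agent.S2119

/-!
# S5935: the rows `PSL₂(19)`, `PSL₂(27)`, `PSL₄(3)`, `A₁₃` reduced to `¬ AdmF`
-/

set_option autoImplicit false

namespace Cfsg.Agent.H540.E72

open Cfsg Cfsg.Lie Cfsg.Agent.H943.E7V Matrix

/-- a group which is not admissible is not a generalized Fitting subgroup of a subgroup of `E₇(2)` -/
theorem empty_of_not_adm {S : Type*} [Group S] (hS : ¬ Adm S) (H : Subgroup ↥(chevE7.group (ZMod 2))) :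
    IsEmpty (↥(generalizedFittingSubgroup ↥H) ≃* S) :=
  ⟨fun e => hS (AdmMain.adm.comap (H.subtype.comp ((generalizedFittingSubgroup ↥H).subtype.comp e.symm.toMonoidHom))
    (H.subtype_injective.comp ((Subgroup.subtype_injective _).comp e.symm.injective)))⟩

/-- the admissibility of a subgroup of a subgroup of `E₇(2)` -/
theorem adm_sub (H : Subgroup ↥(chevE7.group (ZMod 2))) (S : Subgroup ↥H) : Adm ↥S :=
  AdmMain.adm.comap (H.subtype.comp S.subtype) (H.subtype_injective.comp (Subgroup.subtype_injective _))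

/-- `|Aut(PSL_n(q))|` in terms of `|PSL_n(q)|` -/
theorem card_mulAut {F : Type*} [Field F] [Fintype F] (p f : ℕ) [Fact p.Prime] (hf : 1 ≤ f)
    (hF : Fintype.card F = p ^ f) (n : ℕ) (hn : 2 ≤ n) (h2 : n = 2 → 4 ≤ p ^ f) :
    Nat.card (MulAut (ProjectiveSpecialLinearGroup (Fin n) F)) =
      Nat.card (ProjectiveSpecialLinearGroup (Fin n) F) * ((if n = 2 then 1 else 2) * f * Nat.gcd n (p ^ f - 1)) := by
  rw [S0813.result p f hf hF n hn h2, H183.OutPSL.card_pgl_eq hn, hF]
  ring

theorem psl_nonab {F : Type*} [Field F] [Fintype F] {n : ℕ} (hn : 2 ≤ n) (h4 : n = 2 → 4 ≤ Fintype.card F) :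
    ¬ IsMulCommutative (ProjectiveSpecialLinearGroup (Fin n) F) := by
  intro h
  have h1 := H183.OutPSL.center_psl (F := F) hn h4
  have h2 : Subgroup.center (ProjectiveSpecialLinearGroup (Fin n) F) = ⊤ := by
    rw [Subgroup.eq_top_iff']
    intro g
    rw [Subgroup.mem_center_iff]
    intro k
    exact h.is_comm.comm k g
  have := H183.OutPSL.simple_psl (F := F) hn h4
  exact bot_ne_top (h1.symm.trans h2)

/-- `PSL₂(19)` is not the generalized Fitting subgroup of a maximal subgroup of `E₇(2)` -/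
theorem row_l2_19 {F : Type*} [Field F] [Fintype F] (hF : Fintype.card F = 19)
    (H : Subgroup ↥(chevE7.group (ZMod 2))) (hH : IsCoatom H) :
    IsEmpty (↥(generalizedFittingSubgroup ↥H) ≃* ProjectiveSpecialLinearGroup (Fin 2) F) := by
  refine ⟨fun e => ?_⟩
  have : Fact (Nat.Prime 19) := ⟨by norm_num⟩
  have h4 : 2 = 2 → 4 ≤ Fintype.card F := fun _ => by rw [hF]; norm_num
  have := H183.OutPSL.simple_psl (F := F) (le_refl 2) h4
  have hm := card_mulAut (F := F) 19 1 (le_refl 1) (by rw [hF]; norm_num) 2 (le_refl 2) (fun _ => by norm_num)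
  have hc := S0243.result hF 2 (le_refl 2)
  have hA : AdmF (ProjectiveSpecialLinearGroup (Fin 2) F) := by
    refine Max.admF_two (m := 2) (k := 1) (psl_nonab (le_refl 2) h4) ?_ (by norm_num) ?_ H hH e
    · rw [hm]; norm_num
    · norm_num [Fin.prod_univ_two] at hc ⊢
      omega
  obtain ⟨x, y, hx, hy, hxy, -, hcl⟩ := H61.E7.l2_nineteen hF
  exact Scott.not_255 hA hx hy hxy hcl

/-- `PSL₂(27)`: the reduction to `AdmF` -/
theorem admF_l2_27 {F : Type*} [Field F] [Fintype F] (hF : Fintype.card F = 27)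
    (H : Subgroup ↥(chevE7.group (ZMod 2))) (hH : IsCoatom H)
    (e : ↥(generalizedFittingSubgroup ↥H) ≃* ProjectiveSpecialLinearGroup (Fin 2) F) :
    AdmF (ProjectiveSpecialLinearGroup (Fin 2) F) := by
  have : Fact (Nat.Prime 3) := ⟨by norm_num⟩
  have h4 : 2 = 2 → 4 ≤ Fintype.card F := fun _ => by rw [hF]; norm_num
  have := H183.OutPSL.simple_psl (F := F) (le_refl 2) h4
  have hm := card_mulAut (F := F) 3 3 (by norm_num) (by rw [hF]; norm_num) 2 (le_refl 2) (fun _ => by norm_num)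
  have hc := S0243.result hF 2 (le_refl 2)
  refine Max.admF_three (m := 6) (k := 1) (psl_nonab (le_refl 2) h4) ?_ (by norm_num) ?_ H hH e
  · rw [hm]; norm_num
  · norm_num [Fin.prod_univ_two] at hc ⊢
    omega

/-- `PSL₄(3)`: the reduction to `AdmF` -/
theorem admF_l4_3 (H : Subgroup ↥(chevE7.group (ZMod 2))) (hH : IsCoatom H)
    (e : ↥(generalizedFittingSubgroup ↥H) ≃* ProjectiveSpecialLinearGroup (Fin 4) (ZMod 3)) :
    AdmF (ProjectiveSpecialLinearGroup (Fin 4) (ZMod 3)) := by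
  have : Fact (Nat.Prime 3) := ⟨by norm_num⟩
  have h4 : 4 = 2 → 4 ≤ Fintype.card (ZMod 3) := fun h => absurd h (by norm_num)
  have := H183.OutPSL.simple_psl (F := ZMod 3) (n := 4) (by norm_num) h4
  have hm := card_mulAut (F := ZMod 3) 3 1 (by norm_num) (by rw [ZMod.card]; norm_num) 4 (by norm_num)
    (fun h => absurd h (by norm_num))
  have hc := S0243.result (F := ZMod 3) (ZMod.card 3) 4 (by norm_num)
  refine Max.admF_two (m := 4) (k := 2) (psl_nonab (by norm_num) h4) ?_ (by norm_num) ?_ H hH e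
  · rw [hm]; norm_num
  · norm_num [Fin.prod_univ_four] at hc ⊢
    omega

theorem card_mulAut_alt {n : ℕ} (hn : 5 ≤ n) (h6 : n ≠ 6) :
    Nat.card (MulAut ↥(alternatingGroup (Fin n))) = Nat.card ↥(alternatingGroup (Fin n)) * 2 := by
  rw [← Nat.card_congr (Equiv.ofBijective _ (S2119.result n (by omega) h6))]
  have : Nontrivial (Fin n) := Fin.nontrivial_iff_two_le.2 (by omega)
  rw [mul_comm, nat_card_alternatingGroup, Nat.card_perm, Nat.card_fin]
  have h2 : 2 ∣ n.factorial := Nat.dvd_factorial (by norm_num) (by omega)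
  omega

/-- `A₁₃` is not the generalized Fitting subgroup of a maximal subgroup of `E₇(2)` -/
theorem row_a13 (H : Subgroup ↥(chevE7.group (ZMod 2))) (hH : IsCoatom H) :
    IsEmpty (↥(generalizedFittingSubgroup ↥H) ≃* ↥(alternatingGroup (Fin 13))) := by
  refine ⟨fun e => ?_⟩
  have := alternatingGroup.isSimpleGroup (α := Fin 13) (by simp)
  have hna : ¬ IsMulCommutative ↥(alternatingGroup (Fin 13)) := by
    intro h
    have h1 := h.is_comm.comm (⟨Equiv.swap 0 1 * Equiv.swap 0 2, by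
      rw [Equiv.Perm.mem_alternatingGroup]; decide +kernel⟩ : alternatingGroup (Fin 13))
      ⟨Equiv.swap 0 1 * Equiv.swap 0 3, by rw [Equiv.Perm.mem_alternatingGroup]; decide +kernel⟩
    have h2 := congrArg (fun g : alternatingGroup (Fin 13) => (g : Equiv.Perm (Fin 13)) 0) h1
    revert h2
    decide +kernel
  have hm := card_mulAut_alt (n := 13) (by norm_num) (by norm_num)
  have hA : AdmF ↥(alternatingGroup (Fin 13)) := by
    refine Max.admF_two (m := 2) (k := 1) hna hm (by norm_num) ?_ H hH e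
    rw [← hm, ← Nat.card_congr (Equiv.ofBijective _ (S2119.result 13 (by norm_num) (by norm_num))), Nat.card_perm,
      Nat.card_fin]
    norm_num [Nat.factorial]
  obtain ⟨M, V, hM, hV, σ, hv, h1, h2⟩ := hA
  obtain ⟨x, y, hx, hy, hxy, hcl, hbx, hby, -⟩ := H194.E7V.exists_pair hM hV hv
  exact Scott.not_3_3_13 hM hV hv h1 h2 hx hy hxy (Or.inl ⟨hbx, hby⟩) hcl

end Cfsg.Agent.H540.E72
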